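/-
Groups with the `3`-local structure of `M₁₁`: frames and the hypothesis.
-/
import Cfsg.Agent.IC.H
import Cfsg.Agent.Six.A
import Cfsg.Agent.Char.T3l
set_option autoImplicit false
set_option linter.unusedSectionVars false

namespace CF.P11
open Subgroup Cfsg CF.BG CF.GW CF.Ab2
open CF.Six (cu3 ne3 ord3 inv3 card3 pi3 odd3 nd3 cn p3)
open CF.IC (mem_sup_iv card_sup_iv)
open CF.Char.T3 (Syl9 Bas V2 act)
open scoped commutatorElement

variable {G : Type*} [Group G] [Finite G] {G' : Type*} [Group G'] [Finite G']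
variable {K M P T U : Subgroup G} {a b c g h k m n s t u v x y z g' h' t' z' : G}

theorem cjm (e : a * b = b * a) : a * b * a⁻¹ = b := mul_inv_eq_iff_eq_mul.2 e
theorem cmj (e : a * b * a⁻¹ = b) : a * b = b * a := mul_inv_eq_iff_eq_mul.1 e

theorem ne_inv3 (o : orderOf g = 3) : g⁻¹ ≠ g := fun e => ne3 o (by
  have := cu3 o
  rwa [← e, ← mul_inv_rev, ← mul_inv_rev, inv_eq_one, ← mul_assoc, show g * g = 1 from by
    nth_rw 1 [← e]; exact inv_mul_cancel g, one_mul] at this)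

theorem mem3 (o : orderOf g = 3) : a ∈ zpowers g ↔ a = 1 ∨ a = g ∨ a = g⁻¹ := by
  refine ⟨?_, by rintro (rfl | rfl | rfl); exacts [one_mem _, mem_zpowers _, inv_mem (mem_zpowers _)]⟩
  rintro ⟨n, rfl⟩
  have e : g ^ (3 : ℤ) = 1 := by rw [← pow_orderOf_eq_one g, o]; exact zpow_natCast g 3
  have : n % 3 = 0 ∨ n % 3 = 1 ∨ n % 3 = 2 := by omega
  simp only
  rw [← Int.mul_ediv_add_emod n 3, zpow_add, zpow_mul, e, one_zpow, one_mul]
  rcases this with j | j | j <;> rw [j]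
  exacts [.inl (zpow_zero g), .inr (.inl (zpow_one g)), .inr (.inr (by
    rw [eq_inv_iff_mul_eq_one, ← cu3 o, zpow_two]))]

/-- `t, tz` centralize `g, h` and `z` inverts both -/
structure Fr (t g z h : G) : Prop where
  tt : t * t = 1
  zz : z * z = 1
  tz : t * z = z * t
  og : orderOf g = 3
  oh : orderOf h = 3
  gh : g * h = h * g
  tg : t * g = g * t
  zg : z * g * z⁻¹ = g⁻¹
  zh : z * h * z⁻¹ = h⁻¹
  th : t * h * t⁻¹ = h⁻¹

namespace Fr
variable (f : Fr t g z h)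
include f

theorem it : Iv t := .mk' (fun e => ne_inv3 f.oh (by simpa [e] using f.th.symm)) f.tt
theorem iz : Iv z := .mk' (fun e => ne_inv3 f.oh (by simpa [e] using f.zh.symm)) f.zz
theorem tzz : t * z * z = t := by rw [mul_assoc, f.zz, mul_one]
theorem ttz : t * (t * z) = z := by rw [← mul_assoc, f.tt, one_mul]

theorem swap : Fr (t * z) h z g where
  tt := by rw [mul_assoc, ← mul_assoc z, ← f.tz, mul_assoc, f.zz, mul_one, f.tt]
  zz := f.zz
  tz := by rw [← mul_assoc, f.tz]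
  og := f.oh
  oh := f.og
  gh := f.gh.symm
  tg := cmj (by rw [show t * z * h * (t * z)⁻¹ = t * (z * h * z⁻¹) * t⁻¹ by group, f.zh, ← conj_inv, f.th, inv_inv])
  zg := f.zh
  zh := f.zg
  th := by rw [show t * z * g * (t * z)⁻¹ = t * (z * g * z⁻¹) * t⁻¹ by group, f.zg, ← conj_inv, cjm f.tg]

theorem inv : Fr t g z h⁻¹ :=
  ⟨f.tt, f.zz, f.tz, f.og, inv3 f.oh, (Commute.inv_right f.gh :), f.tg, f.zg, by rw [← conj_inv, f.zh],
    by rw [← conj_inv, f.th]⟩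

theorem map {φ : G →* G'} (i : Function.Injective φ) : Fr (φ t) (φ g) (φ z) (φ h) := by
  obtain ⟨a, b, c, d, e, f, g, h, j, k⟩ := f
  refine ⟨?_, ?_, ?_, (orderOf_injective φ i _).trans d, (orderOf_injective φ i _).trans e, ?_, ?_, ?_, ?_, ?_⟩ <;>
    simp only [← map_mul, ← map_inv, *, map_one]

theorem conj (c : G) : Fr (c * t * c⁻¹) (c * g * c⁻¹) (c * z * c⁻¹) (c * h * c⁻¹) := f.map (conj_inj c)

theorem zt : z ≠ t := fun e => ne_inv3 f.og (by rw [← f.zg, e, cjm f.tg])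
theorem hg : h ∉ zpowers g := fun e => ne_inv3 f.oh (by
  rw [← f.th]; exact cjm (mem_cent1.1 (zpowers_le.2 (mem_cent1.2 f.tg.symm) e)).symm)
theorem gC : g ∈ 𝐂₁ t := mem_cent1.2 f.tg.symm
theorem zC : z ∈ 𝐂₁ t := mem_cent1.2 f.tz.symm

theorem abM : Abel (zpowers g ⊔ zpowers h) :=
  (abel_zpowers g).sup (abel_zpowers h) (by rw [cent_zpowers]; exact zpowers_le.2 (mem_cent1.2 f.gh))

theorem cardM : ♯(zpowers g ⊔ zpowers h : Subgroup G) = 9 := by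
  rw [card_sup_of_inf_bot (.inl (zpowers_le.2 (cn f.gh))), card3 f.og, card3 f.oh]
  rw [inf_comm]
  exact inf_eq_bot_of_prime_of_not_le (by rw [card3 f.oh]; exact p3) fun l => f.hg (l (mem_zpowers h))

theorem piM : PiGrp {3} (zpowers g ⊔ zpowers h) := piGrp_of_card (k := 2) p3 f.cardM

theorem zM (hm : m ∈ zpowers g ⊔ zpowers h) : z * m * z⁻¹ = m⁻¹ := by
  obtain ⟨_, ⟨i, rfl⟩, _, ⟨j, rfl⟩, rfl⟩ := (mem_sup_norm (zpowers_le.2 (cn f.gh))).1 hm
  have : Commute g h := f.gh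
  rw [← conj_mul, ← conj_zpow, ← conj_zpow, f.zg, f.zh, (this.zpow_zpow i j).eq, mul_inv_rev, inv_zpow, inv_zpow]

theorem tM : t ∈ 𝐍 (zpowers g ⊔ zpowers h : Subgroup G) := mem_norm_of_cj_le (by
  rw [cj_sup, cj_zpowers, cj_zpowers, cjm f.tg, f.th, zpowers_inv])

theorem zMn : z ∈ 𝐍 (zpowers g ⊔ zpowers h : Subgroup G) := mem_norm_of_cj_le (by
  rw [cj_sup, cj_zpowers, cj_zpowers, f.zg, f.zh, zpowers_inv, zpowers_inv])

end Fr

/-- a frame inside a semidihedral group `⟨y, t⟩` -/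
structure Sd (y t g z h : G) : Prop extends Fr t g z h where
  y4 : y * y * (y * y) = z
  ty : t * y * t⁻¹ = y * y * y
  yg : y * y * g * (y * y)⁻¹ = h
  yM : y ∈ 𝐍 (zpowers g ⊔ zpowers h : Subgroup G)

namespace Sd
variable (f : Sd y t g z h)
include f

theorem yz : y * z = z * y := by rw [← f.y4]; group
theorem yt : y * t * y⁻¹ = t * (y * y) := by
  calc _ = t * (t⁻¹ * y * t⁻¹⁻¹) * y⁻¹ := by group
    _ = _ := by rw [f.it.inv_eq, f.ty]; group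
theorem rt : y * y * t * (y * y)⁻¹ = t * z := by
  calc _ = y * (y * t * y⁻¹) * y⁻¹ := by group
    _ = y * (t * (y * y)) * y⁻¹ := by rw [f.yt]
    _ = y * t * y⁻¹ * (y * y) := by group
    _ = _ := by rw [f.yt, ← f.y4, mul_assoc]
theorem rz : y * y * z * (y * y)⁻¹ = z := by rw [← f.y4, mul_assoc (y * y), mul_inv_cancel_right]
theorem rtz : y * y * (t * z) * (y * y)⁻¹ = t := by rw [← conj_mul, f.rt, f.rz, f.tzz]

theorem conj (c : G) : Sd (c * y * c⁻¹) (c * t * c⁻¹) (c * g * c⁻¹) (c * z * c⁻¹) (c * h * c⁻¹) where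
  toFr := f.toFr.conj c
  y4 := by rw [← f.y4]; group
  ty := by rw [show c * t * c⁻¹ * (c * y * c⁻¹) * (c * t * c⁻¹)⁻¹ = c * (t * y * t⁻¹) * c⁻¹ by group, f.ty]; group
  yg := by rw [← f.yg]; group
  yM := by rw [← cj_zpowers, ← cj_zpowers, ← cj_sup, ← cj_norm]; exact conj_mem_cj.2 f.yM

theorem inv : Sd (y * y * y) t g z h⁻¹ where
  toFr := f.toFr.inv
  y4 := by
    calc _ = y * y * (y * y) * (y * y * (y * y)) * (y * y * (y * y)) := by group
      _ = z := by rw [f.y4, f.zz, one_mul]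
  ty := by rw [← conj_mul, ← conj_mul, f.ty]
  yg := by
    calc _ = y * y * (y * y * (y * y) * g * (y * y * (y * y))⁻¹) * (y * y)⁻¹ := by group
      _ = _ := by rw [f.y4, f.zg, ← conj_inv, f.yg]
  yM := by rw [zpowers_inv]; exact mul_mem (mul_mem f.yM f.yM) f.yM

end Sd

/-- the `3`-local hypothesis -/
structure Hy (G : Type*) [Group G] : Prop where
  c18 : ∀ k : G, orderOf k = 3 → ♯(𝐂₁ k) = 18
  no2 : ∀ P U : Subgroup G, PiGrp {3} P → 9 ∣ ♯P → P ≤ 𝐍 U → P2 U → U = ⊥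
  n27 : ¬ 27 ∣ Nat.card G
  fr : ∀ t g z h t' g' z' h' : G, Fr t g z h → Fr t' g' z' h' →
    ∃ c, c * t * c⁻¹ = t' ∧ c * g * c⁻¹ = g' ∧ c * z * c⁻¹ = z' ∧ (c * h * c⁻¹ = h' ∨ c * h * c⁻¹ = h'⁻¹)
  ex : ∃ y t g z h : G, Sd y t g z h

theorem syl9 (H : Syl9 T) : Syl 3 T ⊤ :=
  syl_mk p3 le_top (piGrp_of_card (k := 2) p3 H.card) (by rw [relIndex_top_right]; exact H.syl)

set_option synthInstance.maxSize 1000 in
theorem dec8 : ∀ μ : V2 × V2, (∀ u, (act μ)^[8] u = u) → ¬ (∀ u, (act μ)^[4] u = u) →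
    (∀ u, (act μ)^[4] u = -u) ∧ ∀ u v, u ≠ 0 → v ≠ 0 → ∃ i : Fin 8, (act μ)^[i] u = v := by decide +kernel

theorem exists_sd (H : Syl9 T) (hy : y ∈ 𝐍 T) (ht : t ∈ 𝐍 T) (oy : orderOf y = 8) (ot : Iv t)
    (e : t * y * t⁻¹ = y ^ 3) : (∃ g ∈ T, ∃ z, ∃ h ∈ T, Sd y t g z h) ∧
      ∀ a ∈ T, ∀ b ∈ T, a ≠ 1 → b ≠ 1 → ∃ i : ℕ, y ^ i * a * (y ^ i)⁻¹ = b := by
  obtain ⟨a, ha, a1⟩ := exists_mem_ne_one (H := T) (one_lt_card.1 (by rw [H.card]; decide))
  obtain ⟨b, hb, b1⟩ : ∃ b ∈ T, b ∉ zpowers a := by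
    by_contra! j
    have := card_le (show T ≤ zpowers a from j)
    rw [H.card, card3 (H.sc3.ord ha a1)] at this
    omega
  obtain ⟨φ, B, -, -⟩ := H.bas ha a1 hb b1
  obtain ⟨μ, hμ⟩ := B.exists_acts hy
  have it : ∀ (i : ℕ) u, y ^ i * φ u * (y ^ i)⁻¹ = φ ((act μ)^[i] u) := fun i => by
    induction i with
    | zero => simp
    | succ i ih => intro u; rw [Function.iterate_succ_apply', ← hμ, ← ih, pow_succ']; group
  have y8 : y ^ 8 = 1 := oy ▸ pow_orderOf_eq_one y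
  have two : ∀ n, n * n = 1 → (∀ m ∈ T, n * m * n⁻¹ = m) → n = 1 := fun n j l => by
    have := H.exp n (H.self fun m hm => (cmj (l m hm)).symm)
    rwa [pow_three, j, mul_one] at this
  have zz : y ^ 4 * y ^ 4 = 1 := by rw [← pow_add, y8]
  obtain ⟨k1, k2⟩ := dec8 μ
    (fun u => B.inj (by rw [← it, y8]; simp)) fun j => pow_ne_one_of_lt_orderOf (n := 4) (by decide)
      (by rw [oy]; decide) (two _ zz fun m hm => by obtain ⟨u, rfl⟩ := (B.mem m).1 hm; rw [it, j])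
  have zm : ∀ m ∈ T, y ^ 4 * m * (y ^ 4)⁻¹ = m⁻¹ := fun m hm => by
    obtain ⟨u, rfl⟩ := (B.mem m).1 hm
    rw [it, k1, B.neg]
  refine ⟨?_, fun a ha b hb a1 b1 => ?_⟩
  swap
  · obtain ⟨u, rfl⟩ := (B.mem a).1 ha
    obtain ⟨v, rfl⟩ := (B.mem b).1 hb
    obtain ⟨i, j⟩ := k2 u v (fun j => a1 (j ▸ B.zero)) fun j => b1 (j ▸ B.zero)
    exact ⟨i, j ▸ it i u⟩
  have tz : t * y ^ 4 = y ^ 4 * t := cmj (by
    rw [← conj_pow, e, ← pow_mul, show 3 * 4 = 8 + 4 from rfl, pow_add, y8, one_mul])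
  obtain ⟨m, hm, j⟩ : ∃ m ∈ T, m * (t * m * t⁻¹) ≠ 1 := by
    by_contra! j
    have := two (t * y ^ 4) (by rw [mul_assoc, ← mul_assoc (y ^ 4), ← tz, mul_assoc, zz, mul_one, ot.sq]) fun m hm => by
      rw [show t * y ^ 4 * m * (t * y ^ 4)⁻¹ = t * (y ^ 4 * m * (y ^ 4)⁻¹) * t⁻¹ by group, zm m hm, ← conj_inv,
        ← eq_inv_of_mul_eq_one_left (j m hm)]
    rw [eq_inv_of_mul_eq_one_left this, show (y ^ 4)⁻¹ * y * (y ^ 4)⁻¹⁻¹ = y ^ 1 by group] at e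
    have := pow_injOn_Iio_orderOf (by simp [oy]) (by simp [oy]) e
    omega
  have m' := conj_mem_of_norm ht hm
  have hg := mul_mem hm m'
  have tg : t * (m * (t * m * t⁻¹)) * t⁻¹ = m * (t * m * t⁻¹) := by
    rw [← conj_mul, show t * (t * m * t⁻¹) * t⁻¹ = t * t * m * (t * t)⁻¹ by group, ot.sq, H.comm _ hm _ m']; group
  generalize m * (t * m * t⁻¹) = g at j hg tg
  have hh := conj_mem_of_norm (mul_mem hy hy) hg
  have th : t * (y * y * g * (y * y)⁻¹) * t⁻¹ = (y * y * g * (y * y)⁻¹)⁻¹ := by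
    calc _ = t * y * t⁻¹ * (t * y * t⁻¹) * (t * g * t⁻¹) * (t * y * t⁻¹ * (t * y * t⁻¹))⁻¹ := by group
      _ = y * y * (y ^ 4 * g * (y ^ 4)⁻¹) * (y * y)⁻¹ := by rw [e, tg, ← sq]; group
      _ = _ := by rw [zm g hg, conj_inv]
  have f : Fr t g (y ^ 4) (y * y * g * (y * y)⁻¹) := ⟨ot.sq, zz, tz, H.sc3.ord hg j,
    (orderOf_conj' _ _).trans (H.sc3.ord hg j), H.comm _ hg _ hh, cmj tg, zm g hg, zm _ hh, th⟩
  refine ⟨g, hg, _, _, hh, f, by simp only [pow_succ, pow_zero, one_mul, mul_assoc], e.trans (pow_three' y), rfl, ?_⟩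
  rwa [eq_of_card_eq (sup_le (zpowers_le.2 hg) (zpowers_le.2 hh)) (f.cardM.trans H.card.symm)]

theorem Fr.inv_h (f : Fr t g z h) (hm : m ∈ zpowers g ⊔ zpowers h) (e : t * m * t⁻¹ = m⁻¹) : m ∈ zpowers h := by
  obtain ⟨a, ha, b, hb, rfl⟩ := (mem_sup_norm (zpowers_le.2 (cn f.gh))).1 hm
  have c := f.abM.mul_comm (mem_sup_left ha) (mem_sup_right hb)
  have j : t * b * t⁻¹ = b⁻¹ := by obtain ⟨i, rfl⟩ := hb; rw [← conj_zpow, f.th, inv_zpow]
  rw [← conj_mul, cjm (mem_cent1.1 (zpowers_le.2 f.gC ha)).symm, j, c, mul_inv_rev, mul_left_inj] at e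
  rcases (mem3 f.og).1 ha with rfl | rfl | rfl
  exacts [by rwa [one_mul], absurd e.symm (ne_inv3 f.og), absurd e (by simpa using ne_inv3 f.og)]

theorem cent_sd (H : Syl9 T) (f : Fr t g z h) (e : zpowers g ⊔ zpowers h = T) : 𝐂₁ g = T ⊔ zpowers t := by
  have hg : g ∈ T := e ▸ mem_sup_left (mem_zpowers g)
  have hh : h ∈ T := e ▸ mem_sup_right (mem_zpowers h)
  have tn : t ∈ 𝐍 T := e ▸ f.tM
  refine le_antisymm (fun c hc => (mem_sup_iv f.tt tn).2 ?_)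
    (sup_le (fun a ha => mem_cent1.2 (H.comm a ha g hg)) (zpowers_le.2 (mem_cent1.2 f.tg)))
  have key : ∀ c ∈ 𝐂₁ g, c * h * c⁻¹ * h⁻¹ ∈ zpowers g → c ∈ T := fun c hc j => by
    have c1 := mem_cent1.1 (zpowers_le.2 (mem_cent1_comm.1 hc) j)
    have c2 := H.comm _ (zpowers_le.2 hg j) h hh
    have c3 := H.exp _ (zpowers_le.2 hg j)
    have c4 : c * h * c⁻¹ = c * h * c⁻¹ * h⁻¹ * h := by group
    generalize c * h * c⁻¹ * h⁻¹ = a at c1 c2 c3 c4
    have : c ^ 3 ∈ T := H.self (e ▸ le_cent_sup (A := zpowers (c ^ 3)) (by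
      rw [cent_zpowers]; exact zpowers_le.2 (pow_mem hc 3)) (by
        rw [cent_zpowers]
        refine zpowers_le.2 (mem_cent1.2 (cmj ?_))
        have i : ∀ n : ℕ, c ^ n * h * (c ^ n)⁻¹ = a ^ n * h := fun n => by
          induction n with
          | zero => simp
          | succ n ih => calc _ = c * (c ^ n * h * (c ^ n)⁻¹) * c⁻¹ := by group
            _ = (c * a * c⁻¹) ^ n * (c * h * c⁻¹) := by rw [ih, conj_pow, conj_mul]
            _ = _ := by rw [cjm c1.symm, c4, pow_succ, mul_assoc]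
        rw [i, c3, one_mul]) (mem_zpowers _))
    refine (syl9 H).mem_of_norm trivial (H.cent g hg (ne3 f.og) hc) ((piNat_pow_self p3 2).dvd ?_)
    exact orderOf_dvd_of_pow_eq_one (by rw [← H.exp _ this, ← pow_mul]; rfl)
  have m := conj_mem_of_norm (H.cent g hg (ne3 f.og) hc) hh
  obtain ⟨a, ha, b, hb, j⟩ := (mem_sup_norm (zpowers_le.2 (cn f.gh))).1 (e.ge m)
  rcases (mem3 f.oh).1 hb with rfl | rfl | rfl
  · refine absurd ?_ f.hg
    rw [← conj_mem_cj (g := c), cj_of_norm (cn (mem_cent1.1 hc)), ← j, mul_one]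
    exact ha
  · exact .inl (key c hc (by rw [← j, mul_inv_cancel_right]; exact ha))
  · refine .inr (key _ (mul_mem (mem_cent1.2 f.tg) hc) ?_)
    rw [show t * c * h * (t * c)⁻¹ = t * (c * h * c⁻¹) * t⁻¹ by group, ← j, ← conj_mul, ← conj_inv, f.th, inv_inv,
      mul_inv_cancel_right, cjm (mem_cent1.1 (zpowers_le.2 f.gC ha)).symm]
    exact ha

theorem hy_of (H : Syl9 T) (hy : y ∈ 𝐍 T) (ht : t ∈ 𝐍 T) (oy : orderOf y = 8) (ot : Iv t)
    (e : t * y * t⁻¹ = y ^ 3) : Hy G := by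
  obtain ⟨⟨g, hg, z, h, hh, f⟩, tr⟩ := exists_sd H hy ht oy ot e
  have eT : ∀ {t g z h}, Fr t g z h → g ∈ T → h ∈ T → zpowers g ⊔ zpowers h = T := fun f hg hh =>
    eq_of_card_eq (sup_le (zpowers_le.2 hg) (zpowers_le.2 hh)) (f.cardM.trans H.card.symm)
  have cg := cent_sd H f.toFr (eT f.toFr hg hh)
  have nT : ∀ s, s * s = 1 → s ∈ T → s = 1 := fun s j m => by
    have := H.exp s m
    rwa [pow_three, j, mul_one] at this
  have into : ∀ k P, k ∈ P → k ≠ 1 → PiGrp {3} P → ∃ c, c * k * c⁻¹ = g ∧ cj c P ≤ T := fun k P hk k1 p => by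
    obtain ⟨c, -, l⟩ := (syl9 H).syl_cj_le le_top p
    obtain ⟨i, j⟩ := tr _ (l (conj_mem_cj.2 hk)) g hg (by simpa using k1) (ne3 f.og)
    exact ⟨y ^ i * c, by rw [← j]; group, cj_cj _ _ P ▸ cj_le_of_norm (pow_mem hy i) l⟩
  have base : ∀ t' g' z' h' : G, Fr t' g' z' h' → ∃ c, c * t' * c⁻¹ = t ∧ c * g' * c⁻¹ = g ∧ c * z' * c⁻¹ = z ∧
      (c * h' * c⁻¹ = h ∨ c * h' * c⁻¹ = h⁻¹) := fun t' g' z' h' f' => by
    obtain ⟨c, e1, l⟩ := into g' _ (mem_sup_left (mem_zpowers _)) (ne3 f'.og) f'.piM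
    have m1 := l (conj_mem_cj.2 (mem_sup_right (mem_zpowers h')))
    have f1 := f'.conj c
    rw [e1] at f1
    have cube : ∀ s m, m ∈ T → s * m * s⁻¹ = m⁻¹ → m⁻¹ * (s * m) * m⁻¹⁻¹ = s := fun s m hm j => by
      calc _ = s * m * s⁻¹ * (s * m) * m := by rw [j, inv_inv]
        _ = s * m ^ 3 := by rw [pow_three']; group
        _ = s := by rw [H.exp m hm, mul_one]
    have ct : ∀ m ∈ T, ∀ a ∈ T, m⁻¹ * a * m⁻¹⁻¹ = a := fun m hm a ha => cjm (H.comm _ (inv_mem hm) a ha)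
    have m2 : t * (c * t' * c⁻¹) ∈ T := ((mem_sup_iv f.tt ht).1 (cg.le (mem_cent1.2 f1.tg))).resolve_left
      fun j => f1.it.ne_one (nT _ f1.tt j)
    have f2 := f1.conj (t * (c * t' * c⁻¹))⁻¹
    have e2 := cube t _ m2 (IC.inv_of_sq f.tt (by rw [← mul_assoc t t, f.tt, one_mul, f1.tt]))
    rw [← mul_assoc t t, f.tt, one_mul] at e2
    rw [e2, ct _ m2 g hg, ct _ m2 _ m1] at f2
    set d := (t * (c * t' * c⁻¹))⁻¹ with hd
    have m3 : z * (d * (c * z' * c⁻¹) * d⁻¹) ∈ T := H.self fun m hm => (cmj (by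
      rw [show ∀ a b : G, a * b * m * (a * b)⁻¹ = a * (b * m * b⁻¹) * a⁻¹ from fun a b => by group,
        f2.zM ((eT f2 hg m1).ge hm), ← conj_inv, f.zM ((eT f.toFr hg hh).ge hm), inv_inv])).symm
    have e3 := cube z _ m3 (f.zM ((eT f.toFr hg hh).ge m3))
    rw [← mul_assoc z z, f.zz, one_mul] at e3
    have e4 : t * (z * (d * (c * z' * c⁻¹) * d⁻¹)) = z * (d * (c * z' * c⁻¹) * d⁻¹) * t := by
      rw [← mul_assoc, f.tz, mul_assoc, f2.tz, ← mul_assoc]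
    set d' := (z * (d * (c * z' * c⁻¹) * d⁻¹))⁻¹ with hd'
    have as : ∀ x, d' * d * c * x * (d' * d * c)⁻¹ = d' * (d * (c * x * c⁻¹) * d⁻¹) * d'⁻¹ := fun x => by group
    refine ⟨d' * d * c, ?_, ?_, by rw [as, e3], ?_⟩
    · rw [as, e2]; exact cjm (Commute.inv_left e4.symm :)
    · rw [as, e1, ct _ m2 g hg, ct _ m3 g hg]
    · rw [as, ct _ m2 _ m1, ct _ m3 _ m1]
      exact ((mem3 f.oh).1 (f.inv_h ((eT f.toFr hg hh).ge m1) f2.th)).resolve_left (ne3 f2.oh)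
  refine ⟨fun k o => ?_, fun P U p d n k => ?_, fun d => H.syl ?_, fun t₁ g₁ z₁ h₁ t₂ g₂ z₂ h₂ f₁ f₂ => ?_, _, _, _, _, _, f⟩
  · obtain ⟨c, j, -⟩ := into k _ (mem_zpowers k) (ne3 o) (pi3 o)
    rw [← card_cj c, cj_cent1, j, cg, card_sup_iv ot ht fun m => ot.ne_one (nT t ot.sq m), H.card]
  · obtain ⟨c, -, l⟩ := (syl9 H).syl_cj_le le_top p
    have e := eq_of_card_le l (by rw [card_cj, H.card]; exact Nat.le_of_dvd (card_pos' _) d)
    have n' : T ≤ 𝐍 (cj c U) := by rw [← e, ← cj_norm]; exact cj_mono c n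
    have k' := k.cj c
    have p' := (syl9 H).pi.of_single_ne (q := 2) (by decide)
    haveI : IsMulCommutative T := ⟨⟨fun a b => Subtype.ext (H.comm a a.2 b b.2)⟩⟩
    have l := Coprime.le_of_forall_centralizer_le T _ (Char.T3.not_cyclic H) n' (cop2' p' k') _ fun a ha a1 =>
      inf_le_right.trans (H.cent a ha a1)
    have := k'.eq_bot (p'.le ((k'.cent_of_norm p' l n').trans H.self))
    simpa using this
  · have := card_mul_index T
    rw [H.card] at this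
    omega
  · obtain ⟨a, a1, a2, a3, a4⟩ := base _ _ _ _ f₁
    obtain ⟨b, b1, b2, b3, b4⟩ := base _ _ _ _ f₂
    have as : ∀ x y, a * x * a⁻¹ = b * y * b⁻¹ → b⁻¹ * a * x * (b⁻¹ * a)⁻¹ = y := fun x y j => by
      rw [show b⁻¹ * a * x * (b⁻¹ * a)⁻¹ = b⁻¹ * (a * x * a⁻¹) * b by group, j]; group
    refine ⟨b⁻¹ * a, as _ _ (a1.trans b1.symm), as _ _ (a2.trans b2.symm), as _ _ (a3.trans b3.symm), ?_⟩
    rcases a4 with a4 | a4 <;> rcases b4 with b4 | b4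
    exacts [.inl (as _ _ (a4.trans b4.symm)), .inr (as _ _ (by rw [a4, ← conj_inv, b4, inv_inv])),
      .inr (as _ _ (by rw [a4, ← conj_inv, b4])), .inl (as _ _ (a4.trans b4.symm))]

end CF.P11
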